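import Cfsg.Agent.H891.Gen.LinRows
import Cfsg.Agent.BpAlt.Row

/-!
# TEAM GEN: from the action form of Hering's theorem and the rows to `LGood` (helper891)
-/

set_option autoImplicit false

namespace Cfsg.Agent.H891.Gen

open Cfsg.Agent.H440.TwoGen Cfsg.Agent.H50.Her Module Subgroup

universe u

variable {p : ℕ} [hp : Fact p.Prime] {V : Type u} [AddCommGroup V] [Module (ZMod p) V]

/-- The normaliser of `L` acts semilinearly over `F = End_L(V)`. -/
theorem semiL_of [Nontrivial V] (F : Type*) [Field F] [Finite F] [Module F V] {G L : Subgroup (V ≃ₗ[ZMod p] V)}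
    (hn : Nor G L) (hlin : ∀ g ∈ L, ∀ (c : F) (v : V), g (c • v) = c • g v)
    (hend : ∀ f : V →ₗ[ZMod p] V, (∀ g ∈ L, ∀ v, f (g v) = g (f v)) → ∃ c : F, ∀ v, f v = c • v) : SemiL F G := by
  intro g hg
  have hsur : ∀ c : F, ∃ c' : F, ∀ v, g (c • g.symm v) = c' • v := by
    intro c
    let f0 : V →+ V :=
      { toFun := fun v => g (c • g.symm v)
        map_zero' := by simp
        map_add' := by intro u v; simp [smul_add] }
    obtain ⟨c', hc'⟩ := hend (f0.toZModLinearMap p) (by
      intro h hh v
      show g (c • g.symm (h v)) = h (g (c • g.symm v))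
      have h1 : g⁻¹ * h * g⁻¹⁻¹ ∈ L := hn _ (inv_mem hg) h hh
      have h2 : g.symm (h v) = (g⁻¹ * h * g⁻¹⁻¹) (g.symm v) := by
        rw [inv_inv]
        show g.symm (h v) = g.symm (h (g (g.symm v)))
        rw [g.apply_symm_apply]
      rw [h2, ← hlin _ h1, inv_inv]
      show g (g.symm (h (g (c • g.symm v)))) = _
      rw [g.apply_symm_apply])
    exact ⟨c', hc'⟩
  choose s hs using hsur
  obtain ⟨v, hv⟩ := exists_ne (0 : V)
  have huniq : ∀ a b : F, a • v = b • v → a = b := fun a b h => smul_left_injective F hv h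
  let φ : F →+* F :=
    { toFun := s
      map_one' := by
        apply huniq
        rw [← hs, one_smul, g.apply_symm_apply, one_smul]
      map_zero' := by
        apply huniq
        rw [← hs, zero_smul, map_zero, zero_smul]
      map_add' := by
        intro a b
        apply huniq
        rw [← hs, add_smul, map_add, hs, hs, add_smul]
      map_mul' := by
        intro a b
        apply huniq
        rw [← hs, mul_smul, mul_smul, ← hs b, ← hs a, g.symm_apply_apply] }
  have hbij : Function.Bijective φ := Finite.injective_iff_bijective.1 φ.injective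
  refine ⟨RingEquiv.ofBijective φ hbij, fun c w => ?_⟩
  have h1 := hs c (g w)
  rw [g.symm_apply_apply] at h1
  exact h1

/-- The normaliser of the isometry group of a nondegenerate form consists of semilinear similitudes. -/
theorem simil_of [Finite V] [Nontrivial V] (F : Type*) [Field F] [Finite F] [Module F V]
    {G L : Subgroup (V ≃ₗ[ZMod p] V)} (f : LinearMap.BilinForm F V) (hf : f.Nondegenerate)
    (hn : Nor G L) (hlin : ∀ g ∈ L, ∀ (c : F) (v : V), g (c • v) = c • g v)
    (hend : ∀ f : V →ₗ[ZMod p] V, (∀ g ∈ L, ∀ v, f (g v) = g (f v)) → ∃ c : F, ∀ v, f v = c • v)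
    (hiso : ∀ h ∈ L, ∀ u v, f (h u) (h v) = f u v) :
    ∀ g ∈ G, ∃ (σ : F ≃+* F) (μ : F), (∀ (c : F) (v : V), g (c • v) = σ c • g v) ∧
      ∀ u v, f (g u) (g v) = μ * σ (f u v) := by
  intro g hg
  obtain ⟨σ, hσ⟩ := semiL_of F hn hlin hend g hg
  have hfin : Module.Finite F V := inferInstance
  -- the second form
  let f' : LinearMap.BilinForm F V :=
    LinearMap.mk₂ F (fun u v => σ.symm (f (g u) (g v)))
      (by intro u u' v; simp) (by intro c u v; simp [hσ]) (by intro u v v'; simp) (by intro c u v; simp [hσ])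
  have hf' : ∀ u v, f' u v = σ.symm (f (g u) (g v)) := fun u v => rfl
  -- `T` with `f u (T v) = f' u v`
  let T : V → V := fun v => (f.flip.toDual (LinearMap.BilinForm.nondegenerate_flip_iff.2 hf)).symm (f'.flip v)
  have hT : ∀ u v, f u (T v) = f' u v := by
    intro u v
    have h1 := LinearMap.BilinForm.apply_toDual_symm_apply (B := f.flip)
      (hB := LinearMap.BilinForm.nondegenerate_flip_iff.2 hf) (f'.flip v) u
    exact h1
  have hinj : ∀ v w, (∀ u, f u v = f u w) → v = w := by
    intro v w h
    have h1 : f.flip v = f.flip w := by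
      ext u
      exact h u
    have h2 := (LinearMap.BilinForm.nondegenerate_flip_iff.2 hf)
    exact (f.flip.toDual h2).injective h1
  let T0 : V →+ V :=
    { toFun := T
      map_zero' := by
        apply hinj
        intro u
        rw [hT, map_zero, map_zero]
      map_add' := by
        intro v w
        apply hinj
        intro u
        rw [hT, map_add, map_add, hT, hT] }
  obtain ⟨c, hc⟩ := hend (T0.toZModLinearMap p) (by
    intro h hh v
    show T (h v) = h (T v)
    apply hinj
    intro u
    have e1 : f u (h (T v)) = f (h.symm u) (T v) := by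
      rw [← hiso h hh (h.symm u), h.apply_symm_apply]
    rw [hT, e1, hT, hf', hf']
    congr 1
    have h1 : g * h * g⁻¹ ∈ L := hn g hg h hh
    have h2 := hiso _ h1 (g (h.symm u)) (g v)
    have h3 : ∀ w, (g * h * g⁻¹) (g w) = g (h w) := by
      intro w
      show g (h (g.symm (g w))) = _
      rw [g.symm_apply_apply]
    rw [h3, h3, h.apply_symm_apply] at h2
    exact h2)
  refine ⟨σ, σ c, hσ, fun u v => ?_⟩
  have h1 := hT u v
  have h2 : T v = c • v := hc v
  rw [h2, map_smul, smul_eq_mul, hf'] at h1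
  have h3 := congrArg σ h1
  rw [map_mul, σ.apply_symm_apply] at h3
  exact h3.symm

/-- `|GL(V)| = 6, 48` for `|V| = 4, 9`; so `GL(V)` is solvable. -/
theorem solvable_small [Finite V] (h2 : finrank (ZMod p) V = 2) (hp3 : p = 2 ∨ p = 3)
    (L : Subgroup (V ≃ₗ[ZMod p] V)) : Group.IsSolvable ↥L := by
  have hfin : Finite (V ≃ₗ[ZMod p] V) := DFunLike.finite _
  let b : Basis (Fin 2) (ZMod p) V := Module.finBasisOfFinrankEq (ZMod p) V h2
  let e : (V ≃ₗ[ZMod p] V) ≃* GL (Fin 2) (ZMod p) :=
    (LinearMap.GeneralLinearGroup.generalLinearEquiv (ZMod p) V).symm.trans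
      (Units.mapEquiv (LinearMap.toMatrixAlgEquiv b).toMulEquiv)
  have h1 : Nat.card (V ≃ₗ[ZMod p] V) < 60 := by
    rw [Nat.card_congr e.toEquiv, Matrix.card_GL_field]
    rcases hp3 with rfl | rfl <;> simp [Fin.prod_univ_succ, ZMod.card]
  have h3 : Nat.card ↥L < 60 := (Subgroup.card_le_card_group L).trans_lt h1
  exact Cfsg.Agent.BpAlt.solvable_of_lt _ ↥L rfl h3

/-- A perfect subgroup containing `SL(V)`, `dim V = 2`, needs a field with at least four elements. -/
theorem four_le_of_perfect [Finite V] [Nontrivial V] (F : Type*) [Field F] [Fintype F] [Module F V]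
    {L : Subgroup (V ≃ₗ[ZMod p] V)} (h2 : finrank F V = 2) (hperf : ⁅L, L⁆ = L) (hbot : L ≠ ⊥) :
    4 ≤ Fintype.card F := by
  by_contra hlt
  have hq : Fintype.card F = 2 ∨ Fintype.card F = 3 := by
    have := Fintype.one_lt_card (α := F)
    omega
  obtain ⟨v, hv⟩ := exists_ne (0 : V)
  have hpF : (p : F) = 0 := by
    have h1 : (p : F) • v = 0 := by
      rw [Nat.cast_smul_eq_nsmul, ← Nat.cast_smul_eq_nsmul (ZMod p), ZMod.natCast_self, zero_smul]
    exact (smul_eq_zero.1 h1).resolve_right hv
  have hpq : p = Fintype.card F := by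
    have h1 : ringChar F ∣ p := ringChar.dvd hpF
    have h3 : ringChar F ∣ Fintype.card F := ringChar.dvd (FiniteField.cast_card_eq_zero F)
    have h4 : ringChar F ≠ 1 := CharP.ringChar_ne_one
    have h5 : (Fintype.card F).Prime := by rcases hq with h | h <;> rw [h] <;> norm_num
    rw [← (Nat.dvd_prime hp.out).1 h1 |>.resolve_left h4, ← (Nat.dvd_prime h5).1 h3 |>.resolve_left h4]
  have hcard : Nat.card V = p ^ 2 := by
    rw [Module.natCard_eq_pow_finrank (K := F), h2, Nat.card_eq_fintype_card, hpq]
  have hrk : finrank (ZMod p) V = 2 := by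
    have h1 := Module.natCard_eq_pow_finrank (K := ZMod p) (V := V)
    rw [hcard, Nat.card_zmod] at h1
    exact (Nat.pow_right_injective hp.out.two_le h1).symm
  have hsol := solvable_small hrk (by rw [hpq]; exact hq) L
  apply hbot
  -- a perfect solvable group is trivial
  have h1 : commutator ↥L = ⊤ := by
    apply Subgroup.map_injective L.subtype_injective
    rw [commutator_def, Subgroup.map_commutator, ← MonoidHom.range_eq_map, Subgroup.range_subtype, hperf]
  by_contra hne
  have : Nontrivial ↥L := (Subgroup.nontrivial_iff_ne_bot L).2 hne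
  have h3 := Group.IsSolvable.commutator_lt_top_of_nontrivial ↥L
  exact h3.ne h1

/-- In dimension two, the maps of determinant one preserve every alternating form. -/
theorem isom_of_det {F : Type*} {V : Type*} [Field F] [AddCommGroup V] [Module F V] (f : LinearMap.BilinForm F V)
    (hf : f.IsAlt) (h2 : finrank F V = 2) (g : V ≃ₗ[F] V) (hg : LinearEquiv.det g = 1) (u v : V) :
    f (g u) (g v) = f u v := by
  have hfin : Module.Finite F V := Module.finite_of_finrank_pos (by omega)
  let b : Basis (Fin 2) F V := Module.finBasisOfFinrankEq F V h2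
  have key : ∀ u v : V, f u v = b.det ![u, v] * f (b 0) (b 1) := by
    intro u v
    have h10 : f (b 1) (b 0) = -f (b 0) (b 1) := by rw [← LinearMap.IsAlt.neg hf (b 1) (b 0), neg_neg]
    have hu := b.sum_repr u
    have hv := b.sum_repr v
    rw [Fin.sum_univ_two] at hu hv
    rw [Basis.det_apply, Matrix.det_fin_two]
    simp only [Basis.toMatrix_apply, Matrix.cons_val_zero, Matrix.cons_val_one]
    conv_lhs => rw [← hu, ← hv]
    simp only [map_add, map_smul, LinearMap.add_apply, LinearMap.smul_apply, smul_eq_mul, hf (b 0), hf (b 1), h10]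
    ring
  rw [key, key u v]
  have h3 := b.det_comp g.toLinearMap ![u, v]
  have h4 : (g.toLinearMap : V → V) ∘ ![u, v] = ![g u, g v] := by
    ext i
    fin_cases i <;> rfl
  rw [h4] at h3
  have h5 : LinearMap.det g.toLinearMap = 1 := by
    have := congrArg Units.val hg
    rwa [LinearEquiv.coe_det, Units.val_one] at this
  rw [h3, h5, one_mul]

/-- **The transitive linear groups are good**, given the action form of Hering's theorem and the rows. -/
theorem LinRows.main (R : LinRows.{u}) {p : ℕ} [hp : Fact p.Prime] {V : Type u} [AddCommGroup V] [Module (ZMod p) V]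
    [Finite V] [Nontrivial V] {G A₀ : Subgroup (V ≃ₗ[ZMod p] V)} (htr : ∀ v w : V, v ≠ 0 → w ≠ 0 → ∃ g ∈ G, g v = w)
    (h : MainOut G A₀) : LGood G := by
  obtain ⟨A, -, hA, h | h | ⟨L, b, hP, hQ, hend, -, h⟩⟩ := h
  · exact R.semi p V G htr h
  · rcases h with ⟨hp3, h2, h3, -⟩ | ⟨h2, h3, h4⟩ | ⟨h4, hp3, h5, h6, h7⟩
    · subst hp3
      exact R.sl23 V G h2 h3
    · exact R.quat p V G htr h2 h3 h4
    · subst hp3
      exact R.ext32 V G A htr hA h4 h5 h6 h7
  · have hLbot : L ≠ ⊥ := fun h => hP.not_le (by rw [h]; exact bot_le)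
    rcases h with ⟨F, _, _, _, h2, hlin, hEnd, h⟩ | h
    · have hsemi : SemiL F G := semiL_of F hP.nor hlin hEnd
      rcases h with h | ⟨f, hfa, hfn, h⟩ | ⟨hp2, h6, h4, hiso, -⟩
      · refine R.sl p V G F h2 (fun h2' => four_le_of_perfect F h2' hP.perf hLbot) hsemi fun g hg => ?_
        obtain ⟨k, hk, hk'⟩ := (h g).1 hg
        exact ⟨k, hP.le hk, hk'⟩
      · rcases h2.lt_or_eq with h3 | h3
        · refine R.sp p V G F f h3 hfa hfn (simil_of F f hfn hP.nor hlin hEnd fun k hk => ?_) fun g hg => ?_
          · -- elements of `L` are isometries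
            let k' : V ≃ₗ[F] V := LinearEquiv.ofBijective
              { toFun := k, map_add' := k.map_add, map_smul' := fun c v => hlin k hk c v } k.bijective
            exact (h k').2 ⟨k, hk, fun v => rfl⟩
          · obtain ⟨k, hk, hk'⟩ := (h g).1 hg
            exact ⟨k, hP.le hk, hk'⟩
        · refine R.sl p V G F h2 (fun h2' => four_le_of_perfect F h2' hP.perf hLbot) hsemi fun g hg => ?_
          obtain ⟨k, hk, hk'⟩ := (h g).1 (isom_of_det f hfa h3.symm g hg)
          exact ⟨k, hP.le hk, hk'⟩
      · subst hp2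
        refine R.g2 V G L F htr h6 h4 hsemi hP.le hP.nor hlin (fun g _ hgc => ?_) hiso
        obtain ⟨c, hc⟩ := hEnd g.toLinearMap fun k hk v => DFunLike.congr_fun (hgc k hk) v
        exact ⟨c, hc⟩
    · rcases h with ⟨⟨h2, h3⟩ | ⟨h4, h3⟩, hiso⟩ | ⟨hp2, h4, hb, hiso⟩ | ⟨hp3, h6, hb, hiso⟩ | ⟨hp2, h6, hb, hiso⟩
      · exact R.sl25 p V G A L htr hA hP hQ h2 h3 hiso
      · subst h3
        exact R.sl25' V G A L htr hA hP hQ h4 hiso
      · subst hp2
        exact R.a67 V G A L htr hA hP hQ h4 hiso
      · subst hp3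
        exact R.sl213 V G A L htr hA hP hQ h6 (by rw [hend, hb, pow_one]) hiso
      · subst hp2
        exact R.u33 V G A L htr hA hP hQ h6 (by rw [hend, hb, pow_one]) hiso

end Cfsg.Agent.H891.Gen
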