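import Cfsg.Agent.H891.Gen.Defs
import Cfsg.Agent.H440.TwoGen.Psl
import Cfsg.Agent.S0243

/-!
# TEAM GEN: the row `PSL_4(2) = A_8` on 8 points (helper891)
-/

set_option autoImplicit false

namespace Cfsg.Agent.H891.Gen.Psl42

open Cfsg.Agent.H440.TwoGen Cfsg.Agent.H384.TwoTrans Subgroup

universe u v

theorem card_psl42 {F : Type*} [Field F] [Fintype F] (hF : Fintype.card F = 2) :
    Nat.card (Matrix.ProjectiveSpecialLinearGroup (Fin 4) F) = 20160 := by
  have h := S0243.result hF 4 (by norm_num)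
  have h1 : Nat.gcd 4 (2 - 1) = 1 := by decide
  rw [h1] at h
  simp [Fin.prod_univ_succ] at h
  omega

theorem twoGen_perm (n : ℕ) : TwoGen (Equiv.Perm (Fin (n + 2))) := by
  refine ⟨finRotate (n + 2), Equiv.swap 0 (finRotate (n + 2) 0), ?_⟩
  exact Equiv.Perm.closure_cycle_adjacent_swap isCycle_finRotate support_finRotate 0

theorem row (G : Type u) (Ω : Type v) [Group G] [MulAction G Ω] (T : Subgroup G) (A : AS G Ω T)
    (F : Type) [Field F] [Fintype F] (hF : Fintype.card F = 2)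
    (e : Nonempty (↥T ≃* Matrix.ProjectiveSpecialLinearGroup (Fin 4) F)) (hΩ : Nat.card Ω = 8) : TwoGen G := by
  have := A.finG
  have := A.finΩ
  have := A.faithful
  obtain ⟨e⟩ := e
  have hT : Nat.card ↥T = 20160 := by rw [Nat.card_congr e.toEquiv, card_psl42 hF]
  have hP : Nat.card (Equiv.Perm Ω) = 40320 := by
    rw [Nat.card_perm, hΩ]
    rfl
  have hinj : Function.Injective (MulAction.toPermHom G Ω) := MulAction.toPerm_injective
  have hdvd : Nat.card G ∣ 40320 := hP ▸ Subgroup.card_dvd_of_injective _ hinj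
  obtain ⟨k, hk⟩ : Nat.card ↥T ∣ Nat.card G := Subgroup.card_subgroup_dvd_card T
  rw [hT] at hk
  rw [hk] at hdvd
  have hk2 : k ∣ 2 := by
    have : 20160 * k ∣ 20160 * 2 := hdvd
    exact Nat.dvd_of_mul_dvd_mul_left (by norm_num) this
  rcases (Nat.dvd_prime Nat.prime_two).1 hk2 with rfl | rfl
  · have htop : T = ⊤ := Subgroup.eq_top_of_card_eq T (by rw [hT, hk])
    have h1 : TwoGen ↥T := (Psl.twoGen_psl (K := F) (n := 3) (by norm_num)).of_equiv' ⟨e⟩
    exact h1.of_equiv ((MulEquiv.subgroupCongr htop).trans Subgroup.topEquiv)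
  · have hbij : Function.Bijective (MulAction.toPermHom G Ω) := by
      rw [Nat.bijective_iff_injective_and_card]
      exact ⟨hinj, by rw [hk, hP]⟩
    obtain ⟨f⟩ : Nonempty (Ω ≃ Fin 8) := ⟨Finite.equivFinOfCardEq hΩ⟩
    have h1 : TwoGen (Equiv.Perm (Fin 8)) := twoGen_perm 6
    have e2 : G ≃* Equiv.Perm (Fin 8) := (MulEquiv.ofBijective _ hbij).trans f.permCongrHom
    exact h1.of_equiv e2.symm

end Cfsg.Agent.H891.Gen.Psl42
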